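import Cfsg.Agent.Lib.MO24.Snd

/-!
# A search through a column of a principal block, with known values
-/

set_option autoImplicit false

namespace Cfsg.Lib.J3O

open List Cfsg.Lib.Golay Cfsg.Lib.MO Cfsg.Lib.MO24 Cfsg.Lib.Small

/-- the admissible values -/
noncomputable def dmU (k : ℕ) (M : ℤ → ℕ) (B : ℕ → ℤ → ℕ) (r : ℕ) (U : List DV) (DU DX : List ℕ) (e : ℕ)
    (v : ℤ) : List ℤ :=
  cond (Nat.ble (DX.count v.natAbs) (DU.count v.natAbs))
    (MO24.fl (fun x => U.contains (v.natAbs, x)) (dom k (M v) (min r (B e v)) v.natAbs))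
    (dom k (M v) (min r (B e v)) v.natAbs)

noncomputable def mkW (k : ℕ) (dm : ℕ → ℤ → List ℤ) (e t s : ℕ) (v : ℤ) : IT :=
  frZ (s * v.sign) fun s => force v.natAbs fun d => frL (dm e v) fun D => it1 k t s d D

noncomputable def mkJ (k t : ℕ) (dm : ℕ → ℤ → List ℤ) (p e : ℕ) (w v : ℤ) : IT :=
  Int.rec (fun m => Nat.rec (item k [[(t, 1, 1)]]) (fun m _ => Nat.rec (IT.rec IT.mk (mkW k dm e t 1 w))
    (fun _ _ => IT.rec IT.mk (mkW k dm (p - 1) 1 t v)) m) m)
    (fun _ => IT.rec IT.mk (mkW k dm (p - 1) 1 t v)) v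

def dvs (S : PP) : List DV := (S.filter (·.2.1 != 1)).map (·.2)

def cs (n h : ℕ) (U : List DV) : Bool :=
  1 + sqS U ≤ h && (1 + (U.map fun a => (a.1 : ℤ) * a.2).sum).natAbs ^ 2 ≤
    (n - (1 + (U.map (·.1 ^ 2)).sum)) * (h - (1 + sqS U))

noncomputable def jc (n k h T W Mq : ℕ) (M : ℤ → ℕ) (B : ℕ → ℤ → ℕ) (U : List DV) (X : BD)
    (lf : ℕ → Bool) : Bool :=
  Prod.rec (fun p Y => Prod.rec (fun e Y => Prod.rec (fun c Y => Prod.rec (fun w l =>
    Grp.forceL (degL X) fun DX => Grp.forceL (mp Prod.fst U) fun DU => !subP id p DU DX ||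
      force (h - sqS (U.filter (·.1 % p == 0))) fun b => force b.sqrt fun r => force ((p - 1) / e) fun t =>
        !(ne k (M w) (min r (B e w)) w.natAbs &&
          allR (fun v => ne k (M v) (min r (B (p - 1) v)) v.natAbs) l) ||
        force T fun T => force W fun W => force Mq fun Mq =>
        search (mkJ k t (dmU k M B r U DU DX) p e w) (0 :: 1 :: l) T W Mq b fun f S =>
          !(lf f && cg k (t * h) c 1 S && cg k (t * h) c 2 S && cg k (t * h) c 3 S &&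
            subP Prod.fst p U (dvs S) && cs n h (un U (dvs S)))) Y) Y) Y) X

/-- the column of an involution -/
noncomputable def jn (n k : ℕ) (M : ℤ → ℕ) (m0 : Bool) (X : BD) : Bool :=
  (X.2.2.1 % 2 == 1 && k % X.1 != 0) || force (n / k) fun h => force ((X.1 - 1) / X.2.1 * X.1 * h) fun m =>
    (!m0 || jc n k h 0 0 0 M (bnd n n (fun _ => n) false X.1) [] X fun _ => true) &&
    (X.2.1 % 2 == 1 || jc n k h (m * X.2.2.1) (m * X.2.2.1 - m / X.2.2.1)
      (cond (X.2.2.1 == 1) 0 (m / m.gcd X.2.2.1)) M (bnd n n (fun _ => n) true X.1) [] X fun f =>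
        X.2.2.1 * (m * X.2.2.1 - f) == m * (X.2.2.1 * (m * X.2.2.1 - f) / m).sqrt ^ 2)

/-- the column of a rational element of order `q` -/
noncomputable def jr (n h q : ℕ) (U : List DV) (X : BD) : Bool :=
  force (n / h) fun k => jc n k h ((X.1 - 1) / X.2.1 * n) ((X.1 - 1) / X.2.1 * n) ((X.1 - 1) / X.2.1 * h)
    (fun _ => q) (fun _ v => cond (v.natAbs % q == 0) 0 n) U X fun _ => true

variable {n k h r p e c t T W Mq f : ℕ} {w u : ℤ} {dm : ℕ → ℤ → List ℤ} {M : ℤ → ℕ} {B : ℕ → ℤ → ℕ}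
  {U : List DV} {P : List (ℤ × ℤ)} {lf : ℕ → Bool}

noncomputable def mkJ' (t : ℕ) (dm : ℕ → ℤ → List ℤ) (p e : ℕ) (w v : ℤ) : List PP :=
  if v = 0 then [[(t, 1, 1)]] else if v = 1 then (dm e w).map fun u => replicate t (w.sign, w.natAbs, u)
  else (dm (p - 1) v).map fun u => [(t * v.sign, v.natAbs, u)]

theorem mkJ_eq (v : ℤ) : mkJ k t dm p e w v = item k (mkJ' t dm p e w v) := by
  have h1 : ∀ e t s v, (IT.rec IT.mk (mkW k dm e t s v) : IT) = item k
      ((dm e v).map fun u => replicate t (s * v.sign, v.natAbs, u)) := fun e t s v => by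
    change mkW k dm e t s v = _
    simp only [mkW, force_eq, frZ_eq, frL_eq, it1, mp_eq, rp_eq]
  rcases v with (_ | _ | v) | v
  · rfl
  · exact (h1 e t 1 w).trans (by simp [mkJ'])
  · exact (h1 (p - 1) 1 t (.ofNat (v + 1 + 1))).trans (by
      rw [mkJ', if_neg (by simp; omega), if_neg (by simp; omega)]; rfl)
  · exact (h1 (p - 1) 1 t (.negSucc v)).trans (by rw [mkJ', if_neg nofun, if_neg nofun]; rfl)

theorem cauchy (R : Multiset DV) : (R.map fun a => (a.1 : ℤ) * a.2).sum ^ 2 ≤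
    (R.map fun a => (a.1 : ℤ) ^ 2).sum * (R.map fun a => a.2 ^ 2).sum := by
  induction R using Multiset.induction_on with
  | empty => simp
  | cons a R ih =>
    simp only [Multiset.map_cons, Multiset.sum_cons]
    have h1 : 0 ≤ (R.map fun a => (a.1 : ℤ) ^ 2).sum := Multiset.sum_nonneg fun _ h =>
      (Multiset.mem_map.1 h).elim fun _ e => e.2 ▸ sq_nonneg _
    have h2 : 0 ≤ (R.map fun a => a.2 ^ 2).sum := Multiset.sum_nonneg fun _ h =>
      (Multiset.mem_map.1 h).elim fun _ e => e.2 ▸ sq_nonneg _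
    generalize (R.map fun a => (a.1 : ℤ) ^ 2).sum = A at *
    generalize (R.map fun a => a.2 ^ 2).sum = B at *
    generalize (R.map fun a => (a.1 : ℤ) * a.2).sum = s at *
    have := abs_le_of_sq_le_sq' (a := 2 * a.1 * a.2 * s) (b := a.1 ^ 2 * B + a.2 ^ 2 * A) (by
      nlinarith [mul_le_mul_of_nonneg_left ih (sq_nonneg (a.1 * a.2)), sq_nonneg (a.1 ^ 2 * B - a.2 ^ 2 * A)])
      (by positivity)
    nlinarith

theorem cs_of {Z : Multiset DV} (hU : (U : Multiset DV) ≤ Z) (h1 : 1 + (Z.map fun a => (a.1 : ℤ) ^ 2).sum = n)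
    (h2 : 1 + (Z.map fun a => a.2 ^ 2).sum = (h : ℤ)) (h3 : 1 + (Z.map fun a => (a.1 : ℤ) * a.2).sum = 0) :
    cs n h U = true := by
  obtain ⟨R, rfl⟩ := Multiset.le_iff_exists_add.1 hU
  have h4 := cauchy R
  have h5 : 0 ≤ (R.map fun a => (a.1 : ℤ) ^ 2).sum := Multiset.sum_nonneg fun _ h =>
    (Multiset.mem_map.1 h).elim fun _ e => e.2 ▸ sq_nonneg _
  have h6 : 0 ≤ (R.map fun a => a.2 ^ 2).sum := Multiset.sum_nonneg fun _ h =>
    (Multiset.mem_map.1 h).elim fun _ e => e.2 ▸ sq_nonneg _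
  have e1 : ((sqS U : ℕ) : ℤ) = (U.map fun a => a.2 ^ 2).sum := by simp [sqS, Function.comp_def]
  have e2 : (((U.map (·.1 ^ 2)).sum : ℕ) : ℤ) = (U.map fun a => (a.1 : ℤ) ^ 2).sum := by
    simp [Function.comp_def]
  simp only [Multiset.map_add, Multiset.sum_add, Multiset.map_coe, Multiset.sum_coe, ← e1, ← e2] at h1 h2 h3
  rw [cs, Bool.and_eq_true, decide_eq_true_eq, decide_eq_true_eq]
  refine ⟨by omega, Int.ofNat_le.1 ?_⟩
  rw [Nat.cast_mul, Nat.cast_sub (by omega), Nat.cast_sub (by omega), Nat.cast_pow, Int.natAbs_sq]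
  convert h4 using 1
  · rw [← neg_sq]; congr 1; omega
  · congr 1 <;> omega

theorem mem_of_count {A : List DV} {a : DV} (h : (U : Multiset DV).filter (¬ p ∣ ·.1) ≤ A)
    (h1 : (A.map Prod.fst).count a.1 ≤ (U.map Prod.fst).count a.1) (h2 : ¬ p ∣ a.1) (h3 : a ∈ A) :
    a ∈ U := by
  have h4 : ∀ V : List DV, (V.map Prod.fst).count a.1 = ((V : Multiset DV).filter (·.1 = a.1)).card :=
    fun V => by simp [count, countP_eq_length_filter, filter_map, Function.comp_def, _root_.beq_eq_decide]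
  have h5 := Multiset.filter_le_filter (·.1 = a.1) h
  rw [Multiset.filter_filter, Multiset.filter_congr (p := fun x : DV => x.1 = a.1 ∧ ¬ p ∣ x.1)
    (q := (·.1 = a.1)) fun x _ => ⟨And.left, fun e => ⟨e, e ▸ h2⟩⟩] at h5
  rw [h4, h4] at h1
  exact Multiset.mem_of_mem_filter (Multiset.mem_of_le (Multiset.eq_of_le_of_card_le h5 h1).ge
    (Multiset.mem_filter.2 ⟨h3, rfl⟩))

theorem jc_sound {Z : Multiset DV} (ht : (p - 1) / e = t) (t0 : 0 < t) (hk : 0 < k) (hM : ∀ v, 0 < M v)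
    (h1 : Adm k (M w) (B e w) w.natAbs u ∧ 1 < w.natAbs ∧ ¬ p ∣ w.natAbs)
    (h2 : ∀ a ∈ P, Adm k (M a.1) (B (p - 1) a.1) a.1.natAbs a.2 ∧ 1 < a.1.natAbs ∧ ¬ p ∣ a.1.natAbs)
    (h3 : sj 0 0 (pB t w u P) = 0) (h5 : ∀ j, ((t * h : ℕ) : ℤ) ∣ c * sj k j (pB t w u P))
    (h6 : s2 k (pB t w u P) + f = T) (h7 : f ≤ W) (h8 : Mq ∣ f) (h9 : lf f = true)
    (z1 : 1 + (Z.map fun a => (a.1 : ℤ) ^ 2).sum = n) (z2 : 1 + (Z.map fun a => a.2 ^ 2).sum = (h : ℤ))
    (z3 : 1 + (Z.map fun a => (a.1 : ℤ) * a.2).sum = 0) (z4 : (U : Multiset DV) ≤ Z)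
    (z5 : (dvs (pB t w u P) : Multiset DV) ≤ Z)
    (z6 : (U : Multiset DV).filter (¬ p ∣ ·.1) ≤ dvs (pB t w u P)) :
    jc n k h T W Mq M B U (p, e, c, w, P.map (·.1)) lf ≠ true := fun H => by
  have e1 : dvs (pB t w u P) = replicate t (w.natAbs, u) ++ P.map fun a => (a.1.natAbs, a.2) := by
    rw [dvs, pB, filter_cons_of_neg (by simp), filter_eq_self.2 (forall_mem_append.2 ⟨fun a ha => by
      simp [eq_of_mem_replicate ha, h1.2.1.ne'], forall_mem_map.2 fun a ha => by simp [(h2 a ha).2.1.ne']⟩)]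
    simp
  have e2 : degL (p, e, c, w, P.map (·.1)) = (dvs (pB t w u P)).map Prod.fst := by simp [e1, degL, ht]
  have e3 : sy (pB t w u P) = 1 + sqS (dvs (pB t w u P)) := by
    rw [e1]
    simp [sy, pB, sqS, Function.comp_def]
  have e4 : ∀ a ∈ dvs (pB t w u P), ¬ p ∣ a.1 := e1 ▸ forall_mem_append.2 ⟨fun a ha => by
    simpa [eq_of_mem_replicate ha] using h1.2.2, forall_mem_map.2 fun a ha => (h2 a ha).2.2⟩
  have e5 : sy (pB t w u P) ≤ h - sqS (U.filter (·.1 % p == 0)) := by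
    have a1 := sum_mono (fun a : DV => a.2.natAbs ^ 2) (A := dvs (pB t w u P) ++ U.filter (·.1 % p == 0))
      (Z := Z) (by
        rw [← Multiset.filter_add_not (¬ p ∣ ·.1) Z, ← Multiset.coe_add]
        exact add_le_add (Multiset.le_filter.2 ⟨z5, e4⟩) (Multiset.le_filter.2 ⟨(Multiset.coe_le.2
          filter_sublist.subperm).trans z4, fun a ha => by
            simpa [Nat.dvd_iff_mod_eq_zero] using (mem_filter.1 ha).2⟩))
    have a2 : (((Z.map fun a => a.2.natAbs ^ 2).sum : ℕ) : ℤ) = (Z.map fun a => a.2 ^ 2).sum := by simp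
    simp only [map_append, sum_append, sqS] at a1 e3 ⊢
    omega
  simp only [jc, Grp.forceL_eq, force_eq, ht, mp_eq, e2] at H
  generalize h - sqS (U.filter (·.1 % p == 0)) = b at H e5
  have a1 : ∀ e v x, (v.natAbs, x) ∈ dvs (pB t w u P) → Adm k (M v) (B e v) v.natAbs x → 1 < v.natAbs →
      x ∈ dmU k M B b.sqrt U (U.map Prod.fst) ((dvs (pB t w u P)).map Prod.fst) e v ∧
        ne k (M v) (min b.sqrt (B e v)) v.natAbs = true := fun e v x a1 a2 a3 => by
    have a4 := mem_dom hk (zero_lt_one.trans a3) (hM v) ⟨a2.1, le_min (Nat.le_sqrt'.2 ((single_le_sum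
      (fun _ _ => Nat.zero_le _) _ (mem_map_of_mem (f := fun a : DV => a.2.natAbs ^ 2) a1)).trans
        (show sqS _ ≤ b by omega))) a2.2.1, a2.2.2⟩
    refine ⟨?_, a4.2⟩
    rw [dmU]
    cases a5 : Nat.ble _ _
    · exact a4.1
    · rw [cond_true, fl_eq]
      exact mem_filter.2 ⟨a4.1, contains_iff_mem.2 (mem_of_count z6 (Nat.le_of_ble_eq_true a5) (e4 _ a1) a1)⟩
  have a2 := a1 e w u (e1 ▸ mem_append_left _ (mem_replicate.2 ⟨t0.ne', rfl⟩)) h1.1 h1.2.1
  have a3 := fun a ha => a1 (p - 1) a.1 a.2 (e1 ▸ mem_append_right _ (mem_map_of_mem ha)) (h2 a ha).1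
    (h2 a ha).2.1
  rw [subP_of (Z := U.map Prod.fst) le_rfl (by
    rw [← Multiset.map_coe, Multiset.filter_map, ← Multiset.map_coe]
    exact Multiset.map_le_map z6), a2.2, allR_of (forall_mem_map.2 fun a ha => (a3 a ha).2)] at H
  have e : ((0, [((t : ℤ), 1, (1 : ℤ))]) :: ((1 : ℤ), replicate t (w.sign, w.natAbs, u)) :: P.map fun a =>
      (a.1, [((t : ℤ) * a.1.sign, a.1.natAbs, a.2)])).flatMap (·.2) = pB t w u P := by
    simp [pB, flatMap_map, ← map_eq_flatMap]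
  obtain ⟨S, a4, a5⟩ := search_sound _ mkJ_eq _ (by simp [Function.comp_def]) (forall_mem_cons.2
    ⟨by simp [mkJ'], forall_mem_cons.2 ⟨mem_map_of_mem a2.1, forall_mem_map.2 fun a ha => by
        have := (h2 a ha).2.1
        rw [mkJ', if_neg (by omega), if_neg (by omega)]
        exact mem_map_of_mem (a3 a ha).1⟩⟩) (e ▸ h3) (e ▸ h6) h7 h8 (e ▸ e5) H
  rw [e] at a4
  have a6 : (dvs S : Multiset DV) = dvs (pB t w u P) := Multiset.coe_eq_coe.2 ((a4.filter _).map _)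
  rw [h9, cg_of a4 (h5 1), cg_of a4 (h5 2), cg_of a4 (h5 3), subP_of le_rfl (a6 ▸ z6),
    cs_of (by rw [coe_un, a6]; exact Multiset.union_le z4 z5) z1 z2 z3] at a5
  cases a5

end Cfsg.Lib.J3O
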