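import Cfsg.Agent.Lib.J3O.Data

/-!
# The searches for the order `50232960`, part 1
-/

set_option autoImplicit false
set_option maxRecDepth 100000

namespace Cfsg.Lib.J3O

open List Cfsg.Lib.Golay Cfsg.Lib.MO Cfsg.Lib.MO24 Cfsg.Lib.Small

theorem r19a : candC 50232960 DN (DL (9 < ·)) 19 (fun _ c => c != 1 && c % 2 == 1) (fun _ => false) = true := by
  decide +kernel

theorem r19b : runB 50232960 DN (DL (9 < ·)) 19 (fun _ c => c % 2 == 0) 76 (fun _ => 50232960)
    (fun k => k % 19 != 0) (fun _ _ _ => false) = true := by decide +kernel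

theorem r17a : candC 50232960 DN (DL o19) 17 (fun _ c => c != 1 && c % 19 != 0)
    (fun X => X.2.1 == 16 && X.2.2.1 == 9 && (X.2.2.2.1 :: X.2.2.2.2).contains (-1920)) = true := by
  decide +kernel

end Cfsg.Lib.J3O
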