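import Cfsg.Agent.Lib.J3O.Data

/-!
# The searches for the order `50232960`, part 2
-/

set_option autoImplicit false
set_option maxRecDepth 100000

namespace Cfsg.Lib.J3O

open List Cfsg.Lib.Golay Cfsg.Lib.MO Cfsg.Lib.MO24 Cfsg.Lib.Small

theorem r5 : candC 50232960 DN (DL ob) 5 (fun _ c => c % 17 != 0 && c % 19 != 0)
    (fun X => fs X || X == (5, 2, 96, 323, [-324]) || C4.contains X || zr X) = true := by decide +kernel

end Cfsg.Lib.J3O
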