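import Cfsg.Agent.Lib.J3O.Data

/-!
# The searches for the order `50232960`, part 3
-/

set_option autoImplicit false
set_option maxRecDepth 100000

namespace Cfsg.Lib.J3O

open List Cfsg.Lib.Golay Cfsg.Lib.MO Cfsg.Lib.MO24 Cfsg.Lib.Small

theorem r17 : candC 50232960 DN (DL ob) 17 (fun _ c => c == 1) (fun X =>
    (!(degL X).contains 324 || (degL X).contains 2432) && allR (yr X) C4 || sr X) = true := by
  decide +kernel

end Cfsg.Lib.J3O
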